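import Cfsg.Agent.Lib.Helper26.MCI.Defs

/-!
# MCI project (S2132), package [A8CEN]
-/

set_option autoImplicit false

namespace Cfsg.Agent.Lib.Helper34.MCI

open Cfsg.Agent.Lib.Helper26.MCI

theorem pkgA8Cen : PkgA8Cen := by
  unfold PkgA8Cen
  exact alternatingGroup.center_eq_bot
    (by rw [Nat.card_eq_fintype_card, Fintype.card_fin]; norm_num)

end Cfsg.Agent.Lib.Helper34.MCI
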