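import Cfsg.Agent.Lib.Helper26.MCI.Defs

/-!
# MCI project (S2132), package [A8GEN]

`closure {g1, g2} = A_8`: the closure is 2-transitive (explicit words), hence primitive, and it
contains the 3-cycle `g1`, so it contains `A_8` by Jordan's theorem (Mathlib).
-/

set_option autoImplicit false

namespace Cfsg.Agent.Lib.Helper34.MCI

open Cfsg.Agent.Lib.Helper26.MCI

/-- a word in `g1`, `g2` mapping `a ↦ 0`, `b ↦ 1` (for `a ≠ b`). -/
def wordA (a : Fin 8) : Equiv.Perm (Fin 8) :=
  if a = 0 then 1 else g1 ^ 2 * g2 ^ ((8 - a.val) % 7)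

/-- a word in `g1`, `g2` mapping `a ↦ 0`, `b ↦ 1` (for `a ≠ b`). -/
def wordAB (a b : Fin 8) : Equiv.Perm (Fin 8) :=
  g2 ^ ((8 - (wordA a b).val) % 7) * wordA a

theorem wordAB_spec : ∀ a b : Fin 8, a ≠ b → wordAB a b a = 0 ∧ wordAB a b b = 1 := by
  decide +kernel

theorem wordA_mem (a : Fin 8) : wordA a ∈ Subgroup.closure ({g1, g2} : Set (Equiv.Perm (Fin 8))) := by
  have h1 : g1 ∈ Subgroup.closure ({g1, g2} : Set (Equiv.Perm (Fin 8))) :=
    Subgroup.subset_closure (by simp)
  have h2 : g2 ∈ Subgroup.closure ({g1, g2} : Set (Equiv.Perm (Fin 8))) :=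
    Subgroup.subset_closure (by simp)
  unfold wordA
  split_ifs
  · exact Subgroup.one_mem _
  · exact Subgroup.mul_mem _ (Subgroup.pow_mem _ h1 _) (Subgroup.pow_mem _ h2 _)

theorem wordAB_mem (a b : Fin 8) :
    wordAB a b ∈ Subgroup.closure ({g1, g2} : Set (Equiv.Perm (Fin 8))) := by
  have h2 : g2 ∈ Subgroup.closure ({g1, g2} : Set (Equiv.Perm (Fin 8))) :=
    Subgroup.subset_closure (by simp)
  unfold wordAB
  exact Subgroup.mul_mem _ (Subgroup.pow_mem _ h2 _) (wordA_mem a)

theorem g1_isThreeCycle : Equiv.Perm.IsThreeCycle g1 := by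
  have h : g1 = Equiv.swap (1 : Fin 8) 0 * Equiv.swap 1 2 := by
    unfold g1
    rw [Equiv.swap_comm]
  rw [h]
  exact Equiv.Perm.isThreeCycle_swap_mul_swap_same (by decide) (by decide) (by decide)

theorem pkgA8Gen : PkgA8Gen := by
  unfold PkgA8Gen
  apply le_antisymm
  · rw [Subgroup.closure_le]
    intro x hx
    rcases hx with rfl | hx
    · exact g1_isThreeCycle.mem_alternatingGroup
    · rw [Set.mem_singleton_iff] at hx
      subst hx
      show g2 ∈ alternatingGroup (Fin 8)
      rw [Equiv.Perm.mem_alternatingGroup]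
      unfold g2
      simp only [map_mul, Equiv.Perm.sign_swap']
      decide
  · have h2 : MulAction.IsMultiplyPretransitive
        (Subgroup.closure ({g1, g2} : Set (Equiv.Perm (Fin 8)))) (Fin 8) 2 := by
      rw [MulAction.is_two_pretransitive_iff]
      intro a b c d hab hcd
      obtain ⟨h1, h2⟩ := wordAB_spec a b hab
      obtain ⟨h3, h4⟩ := wordAB_spec c d hcd
      refine ⟨⟨(wordAB c d)⁻¹ * wordAB a b,
        Subgroup.mul_mem _ (Subgroup.inv_mem _ (wordAB_mem c d)) (wordAB_mem a b)⟩, ?_, ?_⟩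
      · show ((wordAB c d)⁻¹ * wordAB a b) a = c
        rw [Equiv.Perm.mul_apply, h1, Equiv.Perm.inv_eq_iff_eq, h3]
      · show ((wordAB c d)⁻¹ * wordAB a b) b = d
        rw [Equiv.Perm.mul_apply, h2, Equiv.Perm.inv_eq_iff_eq, h4]
    have hprim : MulAction.IsPreprimitive
        (Subgroup.closure ({g1, g2} : Set (Equiv.Perm (Fin 8)))) (Fin 8) :=
      MulAction.isPreprimitive_of_is_two_pretransitive h2
    exact Equiv.Perm.alternatingGroup_le_of_isPreprimitive_of_isThreeCycle_mem hprim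
      g1_isThreeCycle (Subgroup.subset_closure (by simp))

end Cfsg.Agent.Lib.Helper34.MCI
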