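import Cfsg.Agent.Lib.Helper26.MCI.Defs

/-!
# MCI project (S2132), package [NSDC]
-/

set_option autoImplicit false

namespace Cfsg.Agent.Lib.Helper34.MCI

open Cfsg.Agent.Lib.Helper26.MCI

theorem pkgNsdc : PkgNsdc := by
  intro C K _ _ _ t ψ hsurj ht1 hker hcen hsq
  have hψt : ψ t = 1 := (hker t).mpr (Or.inr rfl)
  have htt : t * t = 1 := by
    have h : ψ (t * t) = 1 := by rw [map_mul, hψt, one_mul]
    rcases (hker _).mp h with h1 | h1
    · exact h1
    · exfalso
      apply ht1
      have : t * t = t * 1 := by rw [mul_one]; exact h1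
      exact mul_left_cancel this
  have htcomm : ∀ x : C, x * t = t * x := by
    intro x
    have h : ψ (x * t * x⁻¹) = 1 := by
      rw [map_mul, map_mul, hψt, mul_one, ← map_mul, mul_inv_cancel, map_one]
    rcases (hker _).mp h with h1 | h1
    · exfalso
      apply ht1
      have h2 : x * t = x := by
        have := congrArg (· * x) h1
        simpa using this
      have h3 : x * t = x * 1 := by rw [mul_one]; exact h2
      exact mul_left_cancel h3
    · have := congrArg (· * x) h1
      simpa using this
  have hmem : ∀ z : C, z ∈ Subgroup.center C ↔ (z = 1 ∨ z = t) := by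
    intro z
    constructor
    · intro hz
      apply (hker z).mp
      have hz' : ψ z ∈ Subgroup.center K := by
        rw [Subgroup.mem_center_iff]
        intro k
        obtain ⟨x, rfl⟩ := hsurj k
        rw [← map_mul, ← map_mul, (Subgroup.mem_center_iff.mp hz) x]
      rw [hcen] at hz'
      exact (Subgroup.mem_bot).mp hz'
    · rintro (rfl | rfl)
      · exact Subgroup.one_mem _
      · rw [Subgroup.mem_center_iff]
        intro x
        exact htcomm x
  have hcenker : Subgroup.center C = ψ.ker := by
    ext z
    rw [hmem, MonoidHom.mem_ker, hker]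
  refine ⟨?_, ?_, ?_⟩
  · rw [Nat.card_eq_two_iff]
    refine ⟨⟨1, (hmem 1).mpr (Or.inl rfl)⟩, ⟨t, (hmem t).mpr (Or.inr rfl)⟩, ?_, ?_⟩
    · intro h
      exact ht1 (congrArg Subtype.val h).symm
    · ext ⟨z, hz⟩
      simp only [Set.mem_insert_iff, Set.mem_singleton_iff, Set.mem_univ, iff_true]
      rcases (hmem z).mp hz with h | h
      · left; exact Subtype.ext h
      · right; exact Subtype.ext h
  · exact ⟨(QuotientGroup.quotientMulEquivOfEq hcenker).trans
      (QuotientGroup.quotientKerEquivOfSurjective ψ hsurj)⟩
  · intro L hL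
    obtain ⟨c, hc⟩ := hsq
    obtain ⟨⟨⟨z, hz⟩, ⟨l, hl⟩⟩, hzl, -⟩ := hL.existsUnique c
    have hzl' : z * l = c := hzl
    have hzz : z * z = 1 := by
      rcases (hmem z).mp hz with h | h
      · rw [h, one_mul]
      · rw [h]; exact htt
    have hzc : ∀ x : C, x * z = z * x := fun x => (Subgroup.mem_center_iff.mp hz) x
    have hcl : c ^ 2 = l * l := by
      rw [← hzl', pow_two]
      calc z * l * (z * l) = z * (l * z) * l := by group
        _ = z * (z * l) * l := by rw [hzc l]
        _ = (z * z) * (l * l) := by group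
        _ = l * l := by rw [hzz, one_mul]
    have htL : t ∈ L := by
      rw [← hc, hcl]
      exact L.mul_mem hl hl
    have htC : t ∈ Subgroup.center C := (hmem t).mpr (Or.inr rfl)
    have hdisj : Disjoint (Subgroup.center C) L := hL.disjoint
    have : t ∈ (⊥ : Subgroup C) := by
      rw [← disjoint_iff.mp hdisj]
      exact ⟨htC, htL⟩
    exact ht1 ((Subgroup.mem_bot).mp this)

end Cfsg.Agent.Lib.Helper34.MCI
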