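import Cfsg.Agent.Lib.Helper26.MCI.Defs

/-!
# MCI project (S2132), package [SYL]
-/

set_option autoImplicit false

namespace Cfsg.Agent.Lib.Helper34.MCI

open Cfsg.Agent.Lib.Helper26.MCI

open scoped Pointwise

theorem pkgSyl : PkgSyl := by
  intro M _ _ S t k hS hk hconj
  have : Fact (Nat.Prime 2) := ⟨Nat.prime_two⟩
  have hSp : IsPGroup 2 S := IsPGroup.of_card hS
  obtain ⟨P, hSP⟩ := hSp.exists_le_sylow
  have hPS : (P : Subgroup M) = S := by
    symm
    apply Subgroup.eq_of_le_of_card_ge hSP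
    obtain ⟨m, hm⟩ := (IsPGroup.iff_card).mp P.isPGroup'
    have hdvd : Nat.card (P : Subgroup M) ∣ Nat.card M := Subgroup.card_subgroup_dvd_card _
    rw [hm] at hdvd
    rw [hm, hS]
    apply Nat.pow_le_pow_right (by norm_num)
    by_contra hcon
    push Not at hcon
    exact hk ((pow_dvd_pow 2 (by omega : k + 1 ≤ m)).trans hdvd)
  have key : ∀ x : M, orderOf x = 2 → IsConj x t := by
    intro x hx
    have hxp : IsPGroup 2 (Subgroup.zpowers x) := by
      apply IsPGroup.of_card (n := 1)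
      rw [Nat.card_zpowers, hx, pow_one]
    obtain ⟨Q, hxQ⟩ := hxp.exists_le_sylow
    obtain ⟨g, hg⟩ := MulAction.exists_smul_eq M Q P
    have hxQ' : x ∈ (Q : Subgroup M) := hxQ (Subgroup.mem_zpowers x)
    have h1 : MulAut.conj g • x ∈ MulAut.conj g • (Q : Subgroup M) :=
      Subgroup.smul_mem_pointwise_smul x (MulAut.conj g) (Q : Subgroup M) hxQ'
    have h2 : MulAut.conj g • (Q : Subgroup M) = ((g • Q : Sylow 2 M) : Subgroup M) := rfl
    rw [h2, hg, hPS] at h1
    have h3 : MulAut.conj g • x = g * x * g⁻¹ := rfl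
    rw [h3] at h1
    have h4 : orderOf (g * x * g⁻¹) = 2 := by
      have := MulEquiv.orderOf_eq (MulAut.conj g) x
      rw [MulAut.conj_apply] at this
      rw [this, hx]
    have h5 : IsConj (g * x * g⁻¹) t := hconj _ h1 h4
    have h6 : IsConj x (g * x * g⁻¹) := isConj_iff.mpr ⟨g, rfl⟩
    exact h6.trans h5
  intro x y hx hy
  exact (key x hx).trans (key y hy).symm

end Cfsg.Agent.Lib.Helper34.MCI
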